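import Mathlib
import Cfsg.Agent.Lib.Lead.ZJFunctor

/-!
# The iterated `Z(J)`-functor: a self-centralizing characteristic subgroup (for S5280)
-/

set_option autoImplicit false

universe u

namespace Cfsg.Agent.Lib.Helper76.FS

open Cfsg Cfsg.Agent.Lib.Lead

/-- a subgroup is normal in its centralizer -/
instance subgroupOf_centralizer_normal {Q : Type*} [Group Q] (Z : Subgroup Q) :
    (Z.subgroupOf (Subgroup.centralizer (Z : Set Q))).Normal := by
  constructor
  intro z hz c
  rw [Subgroup.mem_subgroupOf] at hz ⊢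
  have h := Subgroup.mem_centralizer_iff.1 c.2 z hz
  have h2 : ((c * z * c⁻¹ : ↥(Subgroup.centralizer (Z : Set Q))) : Q) = z := by
    show (c : Q) * z * (c : Q)⁻¹ = z
    rw [← h, mul_inv_cancel_right]
  rw [h2]
  exact hz

/-- `dz 0 Q = 1`, and `dz (n+1) Q` is the subgroup of `C = C_Q(Z(J(Q)))` containing `Z = Z(J(Q))` with
`dz (n+1) Q / Z = dz n (C / Z)`. -/
def dz : ℕ → ∀ (Q : Type u) [Group Q], Subgroup Q
  | 0, _, _ => ⊥
  | n + 1, Q, _ =>
    ((dz n (↥(Subgroup.centralizer (zjA Q : Set Q)) ⧸ (zjA Q).subgroupOf (Subgroup.centralizer (zjA Q : Set Q)))).comap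
      (QuotientGroup.mk' ((zjA Q).subgroupOf (Subgroup.centralizer (zjA Q : Set Q))))).map
        (Subgroup.centralizer (zjA Q : Set Q)).subtype

theorem dz_zero (Q : Type u) [Group Q] : dz 0 Q = ⊥ := rfl

theorem dz_succ (n : ℕ) (Q : Type u) [Group Q] : dz (n + 1) Q =
    ((dz n (↥(Subgroup.centralizer (zjA Q : Set Q)) ⧸ (zjA Q).subgroupOf (Subgroup.centralizer (zjA Q : Set Q)))).comap
      (QuotientGroup.mk' ((zjA Q).subgroupOf (Subgroup.centralizer (zjA Q : Set Q))))).map
        (Subgroup.centralizer (zjA Q : Set Q)).subtype := rfl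

/-- the stable value -/
noncomputable def dzF (Q : Type u) [Group Q] : Subgroup Q := dz (Nat.card Q) Q

end Cfsg.Agent.Lib.Helper76.FS
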