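import Mathlib
import Cfsg.Agent.Lib.Helper34.Radical

/-!
# Piece P2: a small subgroup on which a lift of a transvection acts quadratically
-/

set_option autoImplicit false

namespace Cfsg.Agent.Lib.Helper76.FS

open Subgroup

theorem conj_invol {Γ : Type*} [Group Γ] (τ δ : Γ) (hτ : τ * τ = 1) (hτδ : τ * δ * (τ * δ) = 1) (r : ℕ)
    (hδ : δ ^ (2 * r + 1) = 1) : δ ^ (r + 1) * (τ * δ) * (δ ^ (r + 1))⁻¹ = τ := by
  have hτi : τ⁻¹ = τ := inv_eq_of_mul_eq_one_left hτ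
  have h1 : τ * δ * τ⁻¹ = δ⁻¹ := by
    rw [hτi]
    apply eq_inv_of_mul_eq_one_left
    rw [← hτδ]
    group
  have h2 : ∀ n : ℕ, τ * δ ^ n * τ⁻¹ = (δ ^ n)⁻¹ := by
    intro n
    rw [← conj_pow, h1, inv_pow]
  have h3 : δ ^ (r + 1) * τ = τ * (δ ^ (r + 1))⁻¹ := by
    rw [← h2 (r + 1), hτi]
    calc δ ^ (r + 1) * τ = (τ * τ) * δ ^ (r + 1) * τ := by rw [hτ, one_mul]
      _ = τ * (τ * δ ^ (r + 1) * τ) := by group
  calc δ ^ (r + 1) * (τ * δ) * (δ ^ (r + 1))⁻¹ = (δ ^ (r + 1) * τ) * δ * (δ ^ (r + 1))⁻¹ := by group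
    _ = τ * (δ ^ (2 * r + 1))⁻¹ := by rw [h3]; group
    _ = τ := by rw [hδ, inv_one, mul_one]

/-- P2 -/
theorem exists_small_quadratic {T : Type*} [Group T] [Finite T] {p : ℕ} [Fact p.Prime] (hp2 : p ≠ 2)
    (hT : IsPGroup p T) (E : Subgroup T) (hEc : ∀ e ∈ E, ∀ u : T, e * u = u * e)
    (hab : ∀ u v : T, u * v * u⁻¹ * v⁻¹ ∈ E)
    (𝓛 : Subgroup (MulAut T)) (hE : ∀ l ∈ 𝓛, ∀ e ∈ E, l e ∈ E)
    (hker : ∀ l ∈ 𝓛, (∀ u : T, l u * u⁻¹ ∈ E) → ∃ n : ℕ, l ^ p ^ n = 1)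
    (t : MulAut T) (ht : t ∈ 𝓛) (htE : ∀ e ∈ E, t e = e) (hinv : ∀ u : T, t u * u ∈ E) (ht2 : t * t = 1)
    (k w : MulAut T) (hk : k ∈ 𝓛) (hw : w ∈ 𝓛) (a b : T)
    (hka : k a * a⁻¹ ∈ E) (hkb : k b * (a * b)⁻¹ ∈ E) (hwa : w a * b ∈ E) (hwb : w b * a⁻¹ ∈ E) :
    ∃ (T₀ : Subgroup T) (k' w' : MulAut T) (a' : T), k' ∈ 𝓛 ∧ w' ∈ 𝓛 ∧
      (∀ u : T, k' u * (k u)⁻¹ ∈ E) ∧ (∀ u : T, w' u * (w u)⁻¹ ∈ E) ∧
      (∀ u ∈ T₀, k' u ∈ T₀) ∧ (∀ u ∈ T₀, w' u ∈ T₀) ∧ a' ∈ T₀ ∧ a' * a⁻¹ ∈ E ∧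
      ∀ u ∈ T₀, k' (k' u * u⁻¹) = k' u * u⁻¹ := by
  classical
  have hEn : E.Normal := ⟨fun e he g => by rw [← hEc e he g, mul_inv_cancel_right]; exact he⟩
  set π := QuotientGroup.mk' E with hπdef
  have hπ1 : ∀ x : T, π x = 1 ↔ x ∈ E := fun x => QuotientGroup.eq_one_iff x
  have hπeq : ∀ x y : T, π x = π y ↔ x * y⁻¹ ∈ E := by
    intro x y
    rw [← hπ1, map_mul, map_inv, mul_inv_eq_one]
  obtain ⟨j, hj⟩ := IsPGroup.iff_card.1 hT
  have hpodd : Odd p := Nat.Prime.odd_of_ne_two Fact.out hp2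
  obtain ⟨M', hM'⟩ : Odd (Nat.card T) := by rw [hj]; exact hpodd.pow
  set M := M' + 1 with hM
  have hpow : ∀ x : T, (x * x) ^ M = x := by
    intro x
    rw [← pow_two, ← pow_mul]
    have : 2 * M = Nat.card T + 1 := by omega
    rw [this, pow_succ, pow_card_eq_one', one_mul]
  have hcong : ∀ l ∈ 𝓛, ∀ x y : T, π x = π y → π (l x) = π (l y) := by
    intro l hl x y hxy
    rw [hπeq] at hxy ⊢
    have := hE l hl _ hxy
    rwa [map_mul, map_inv] at this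
  have hπt : ∀ u : T, π (t u) = (π u)⁻¹ := by
    intro u
    rw [eq_inv_iff_mul_eq_one, ← map_mul, hπ1]
    exact hinv u
  have htt : ∀ u : T, t (t u) = u := by
    intro u
    have := DFunLike.congr_fun ht2 u
    exact this
  -- the subgroup of automorphisms trivial mod `E`
  let U₀ : Subgroup (MulAut T) :=
    { carrier := {l | l ∈ 𝓛 ∧ ∀ u, π (l u) = π u}
      one_mem' := ⟨𝓛.one_mem, fun u => rfl⟩
      mul_mem' := fun {x y} hx hy =>
        ⟨𝓛.mul_mem hx.1 hy.1, fun u => by rw [MulAut.mul_apply, hx.2, hy.2]⟩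
      inv_mem' := fun {x} hx => ⟨𝓛.inv_mem hx.1, fun u => by
        have := hx.2 (x⁻¹ u)
        rw [MulAut.apply_inv_self] at this
        exact this.symm⟩ }
  -- Step 1: commuting lifts
  have lift : ∀ h ∈ 𝓛, ∃ h' ∈ 𝓛, h' * t = t * h' ∧ ∀ u, π (h' u) = π (h u) := by
    intro h hh
    set δ := t * (h * t * h⁻¹) with hδ
    have hδU : δ ∈ U₀ := by
      refine ⟨𝓛.mul_mem ht (𝓛.mul_mem (𝓛.mul_mem hh ht) (𝓛.inv_mem hh)), fun u => ?_⟩
      rw [hδ]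
      simp only [MulAut.mul_apply]
      rw [hπt]
      have h1 : π (t (h⁻¹ u)) = π ((h⁻¹ u)⁻¹) := by rw [hπt, map_inv]
      rw [hcong h hh _ _ h1, map_inv, MulAut.apply_inv_self, map_inv, inv_inv]
    obtain ⟨n, hn⟩ := hker δ hδU.1 (fun u => by rw [← hπeq]; exact hδU.2 u)
    obtain ⟨r, hr⟩ : Odd (p ^ n) := hpodd.pow
    rw [hr] at hn
    have htδ : t * δ = h * t * h⁻¹ := by
      rw [hδ, ← mul_assoc, ht2, one_mul]
    have h1 := conj_invol t δ ht2 (by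
      rw [htδ]
      calc h * t * h⁻¹ * (h * t * h⁻¹) = h * (t * t) * h⁻¹ := by group
        _ = 1 := by rw [ht2]; group) r hn
    have hfU : δ ^ (r + 1) ∈ U₀ := U₀.pow_mem hδU _
    refine ⟨δ ^ (r + 1) * h, 𝓛.mul_mem hfU.1 hh, ?_, fun u => ?_⟩
    · rw [htδ] at h1
      calc δ ^ (r + 1) * h * t = (δ ^ (r + 1) * (h * t * h⁻¹) * (δ ^ (r + 1))⁻¹) * (δ ^ (r + 1) * h) := by group
        _ = t * (δ ^ (r + 1) * h) := by rw [h1]
    · rw [MulAut.mul_apply, hfU.2]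
  -- Step 2: the section `ι`
  let ι : T → T := fun u => (u * (t u)⁻¹) ^ M
  have hιdef : ∀ u, ι u = (u * (t u)⁻¹) ^ M := fun u => rfl
  have hιt : ∀ u, t (ι u) = (ι u)⁻¹ := by
    intro u
    rw [hιdef, map_pow, map_mul, map_inv, htt, ← inv_pow]
    congr 1
    group
  have hιπ : ∀ u, π (ι u) = π u := by
    intro u
    rw [hιdef, map_pow, map_mul, map_inv, hπt, inv_inv, ← map_mul, ← map_pow, hpow]
  have huniq : ∀ u u' : T, t u = u⁻¹ → t u' = u'⁻¹ → π u' = π u → u' = u := by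
    intro u u' hu hu' h
    rw [hπeq] at h
    set e := u' * u⁻¹ with he
    have hu'e : u' = e * u := by rw [he]; group
    have h1 : e * u⁻¹ = e⁻¹ * u⁻¹ := by
      have h2 : t u' = e * u⁻¹ := by rw [hu'e, map_mul, htE e h, hu]
      rw [← h2, hu', hu'e, mul_inv_rev, ← hEc _ (E.inv_mem h)]
    have h3 : e * e = 1 := by
      have := mul_right_cancel h1
      rw [eq_inv_iff_mul_eq_one] at this
      exact this
    have h4 : e = 1 := by
      rw [← hpow e, h3, one_pow]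
    rw [hu'e, h4, one_mul]
  -- Step 3
  obtain ⟨k', hk'L, hk't, hk'k⟩ := lift k hk
  obtain ⟨w', hw'L, hw't, hw'w⟩ := lift w hw
  set a' := ι a with ha'
  set b' := ι b with hb'
  set T₀ := closure ({a', b'} : Set T) with hT₀
  have ha'T : a' ∈ T₀ := subset_closure (by simp)
  have hb'T : b' ∈ T₀ := subset_closure (by simp)
  have hta : t a' = a'⁻¹ := hιt a
  have htb : t b' = b'⁻¹ := hιt b
  have hπa : π a' = π a := hιπ a
  have hπb : π b' = π b := hιπ b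
  have htT : ∀ u ∈ T₀, t u ∈ T₀ := by
    intro u hu
    have h1 : T₀ ≤ T₀.comap t.toMonoidHom := by
      rw [hT₀, closure_le]
      rintro x (rfl | rfl)
      · show t a' ∈ closure {a', b'}
        rw [hta]; exact inv_mem ha'T
      · show t b' ∈ closure {a', b'}
        rw [htb]; exact inv_mem hb'T
    exact h1 hu
  have hιT : ∀ u ∈ T₀, ι u ∈ T₀ := fun u hu => pow_mem (mul_mem hu (inv_mem (htT u hu))) _
  have hcomm : ∀ h : MulAut T, h * t = t * h → ∀ u, t u = u⁻¹ → t (h u) = (h u)⁻¹ := by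
    intro h hh u hu
    have := DFunLike.congr_fun hh u
    simp only [MulAut.mul_apply] at this
    rw [← this, hu, map_inv]
  have hka' : k' a' = a' := by
    apply huniq _ _ hta (hcomm k' hk't _ hta)
    rw [hk'k, hcong k hk _ _ hπa, hπa, hπeq]
    exact hka
  have hwa' : w' a' = b'⁻¹ := by
    apply huniq _ _ (by rw [map_inv, htb]) (hcomm w' hw't _ hta)
    rw [hw'w, hcong w hw _ _ hπa, map_inv, hπb, ← map_inv, hπeq, inv_inv]
    exact hwa
  have hwb' : w' b' = a' := by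
    apply huniq _ _ hta (hcomm w' hw't _ htb)
    rw [hw'w, hcong w hw _ _ hπb, hπa, hπeq]
    exact hwb
  have hkb' : k' b' = ι (a' * b') := by
    apply huniq _ _ (hιt _) (hcomm k' hk't _ htb)
    rw [hk'k, hcong k hk _ _ hπb, hιπ, map_mul, hπa, hπb, ← map_mul, hπeq]
    exact hkb
  have hk'T : ∀ u ∈ T₀, k' u ∈ T₀ := by
    intro u hu
    have h1 : T₀ ≤ T₀.comap k'.toMonoidHom := by
      rw [hT₀, closure_le]
      rintro x (rfl | rfl)
      · show k' a' ∈ closure {a', b'}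
        rw [hka']; exact ha'T
      · show k' b' ∈ closure {a', b'}
        rw [hkb']; exact hιT _ (mul_mem ha'T hb'T)
    exact h1 hu
  have hw'T : ∀ u ∈ T₀, w' u ∈ T₀ := by
    intro u hu
    have h1 : T₀ ≤ T₀.comap w'.toMonoidHom := by
      rw [hT₀, closure_le]
      rintro x (rfl | rfl)
      · show w' a' ∈ closure {a', b'}
        rw [hwa']; exact inv_mem hb'T
      · show w' b' ∈ closure {a', b'}
        rw [hwb']; exact ha'T
    exact h1 hu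
  refine ⟨T₀, k', w', a', hk'L, hw'L, fun u => (hπeq _ _).1 (hk'k u), fun u => (hπeq _ _).1 (hw'w u),
    hk'T, hw'T, ha'T, (hπeq _ _).1 hπa, ?_⟩
  -- Step 4
  set z := a' * b' * a'⁻¹ * b'⁻¹ with hz
  have hzE : z ∈ E := hab a' b'
  set β := k' b' with hβ
  set e := (a' * b')⁻¹ * β with he
  have heE : e ∈ E := by
    rw [← hπ1, he, map_mul, map_inv, hkb', hιπ, inv_mul_cancel]
  have hβe : β = a' * b' * e := by rw [he]; group
  have htβ : t β = β⁻¹ := hcomm k' hk't _ htb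
  have hee : e * e = z⁻¹ := by
    have h1 : a'⁻¹ * b'⁻¹ * e = e⁻¹ * (b'⁻¹ * a'⁻¹) := by
      have h2 : t β = a'⁻¹ * b'⁻¹ * e := by rw [hβe, map_mul, map_mul, hta, htb, htE e heE]
      rw [← h2, htβ, hβe]
      group
    have h3 : e * (a'⁻¹ * b'⁻¹ * e) = b'⁻¹ * a'⁻¹ := by rw [h1]; group
    rw [hEc e heE] at h3
    calc e * e = (a'⁻¹ * b'⁻¹)⁻¹ * (a'⁻¹ * b'⁻¹ * e * e) := by group
      _ = (a'⁻¹ * b'⁻¹)⁻¹ * (b'⁻¹ * a'⁻¹) := by rw [h3]
      _ = z⁻¹ := by rw [hz]; group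
  have hez : e = (z⁻¹) ^ M := by rw [← hee, hpow]
  have hkz : k' z = z := by
    have h1 : k' z = a' * β * a'⁻¹ * β⁻¹ := by
      rw [hz]
      simp only [map_mul, map_inv, hka']
      rfl
    rw [h1, hβe]
    have h2 : a' * (a' * b' * e) * a'⁻¹ * (a' * b' * e)⁻¹ = a' * (a' * b' * (e * a'⁻¹) * e⁻¹ * b'⁻¹) * a'⁻¹ := by
      group
    rw [h2, hEc e heE]
    have h3 : a' * (a' * b' * (a'⁻¹ * e) * e⁻¹ * b'⁻¹) * a'⁻¹ = a' * z * a'⁻¹ := by
      rw [hz]; group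
    rw [h3, ← hEc z hzE, mul_inv_cancel_right]
  set F₀ := closure ({a', z} : Set T) with hF₀
  have haF : a' ∈ F₀ := subset_closure (by simp)
  have hzF : z ∈ F₀ := subset_closure (by simp)
  have hfix : ∀ f ∈ F₀, k' f = f := by
    intro f hf
    have h1 : F₀ ≤ (MonoidHom.eqLocus k'.toMonoidHom (MonoidHom.id T)) := by
      rw [hF₀, closure_le]
      rintro x (rfl | rfl)
      · exact hka'
      · exact hkz
    exact h1 hf
  have hnorm : ∀ g : T, g * a' * g⁻¹ ∈ F₀ → g ∈ normalizer (F₀ : Set T) := by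
    intro g hg
    apply Cfsg.Agent.Lib.Helper34.mem_normalizer_of_conj_le
    rw [Subgroup.map_le_iff_le_comap, hF₀, closure_le]
    rintro x (rfl | rfl)
    · exact hg
    · show g * z * g⁻¹ ∈ closure {a', z}
      rw [← hEc z hzE, mul_inv_cancel_right]
      exact hzF
  have haN : a' ∈ normalizer (F₀ : Set T) := hnorm a' (by rw [mul_inv_cancel_right]; exact haF)
  have hbN : b' ∈ normalizer (F₀ : Set T) := hnorm b' (by
    have : b' * a' * b'⁻¹ = z⁻¹ * a' := by rw [hz]; group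
    rw [this]
    exact mul_mem (inv_mem hzF) haF)
  let 𝒰 : Subgroup T :=
    { carrier := {u | u ∈ normalizer (F₀ : Set T) ∧ k' u * u⁻¹ ∈ F₀}
      one_mem' := ⟨one_mem _, by simp⟩
      mul_mem' := fun {x y} hx hy => ⟨mul_mem hx.1 hy.1, by
        have h1 : k' (x * y) * (x * y)⁻¹ = (k' x * x⁻¹) * (x * (k' y * y⁻¹) * x⁻¹) := by
          rw [map_mul]; group
        rw [h1]
        exact mul_mem hx.2 ((mem_normalizer_iff.1 hx.1 _).1 hy.2)⟩
      inv_mem' := fun {x} hx => ⟨inv_mem hx.1, by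
        have h1 : k' x⁻¹ * x⁻¹⁻¹ = x⁻¹ * (k' x * x⁻¹)⁻¹ * x⁻¹⁻¹ := by
          rw [map_inv]; group
        rw [h1]
        exact (mem_normalizer_iff.1 (inv_mem hx.1) _).1 (inv_mem hx.2)⟩ }
  have hT𝒰 : T₀ ≤ 𝒰 := by
    rw [hT₀, closure_le]
    rintro x (rfl | rfl)
    · exact ⟨haN, by rw [hka', mul_inv_cancel]; exact one_mem _⟩
    · refine ⟨hbN, ?_⟩
      have h1 : k' b' * b'⁻¹ = a' * e := by
        show β * b'⁻¹ = _
        rw [hβe, mul_assoc a' b' e, ← hEc e heE]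
        group
      rw [h1, hez]
      exact mul_mem haF (pow_mem (inv_mem hzF) _)
  intro u hu
  exact hfix _ (hT𝒰 hu).2

end Cfsg.Agent.Lib.Helper76.FS
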