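import Cfsg.Agent.Lib.Helper85.GroupFus

/-!
# From control of strong fusion to normal and centric subgroups of the fusion system of a group
-/

set_option autoImplicit false

namespace Cfsg.Agent.Lib.Helper76.FS

open Cfsg Cfsg.FusionSystem Cfsg.Agent.Lib.Helper85

theorem isNormal_of_controls {G : Type*} [Group G] (P W : Subgroup G) (hW : W ≤ P)
    (h : ∀ A : Set G, A ⊆ P → ControlsStrongFusionOf (Subgroup.normalizer (W : Set G)) P A) :
    (groupFusionSystem P).IsNormal W := by
  refine ⟨hW, ?_⟩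
  rintro A φ ⟨hA, hφS, g, hg⟩
  obtain ⟨x, hx, hxa⟩ := (h (A : Set G) hA).2 g (by
    rintro _ ⟨a, ha, rfl⟩
    have := hφS ⟨a, ha⟩
    rw [hg] at this
    exact this)
  have hWx : W.map (MulAut.conj x).toMonoidHom = W := by
    ext y
    rw [mem_map_conj]
    have := Subgroup.mem_normalizer_iff.1 (inv_mem hx) y
    rw [inv_inv] at this
    exact this.symm
  refine ⟨conjHom (A ⊔ W) x, groupFus_conjHom_mem (sup_le hA hW) ?_, fun a => ?_, ?_⟩
  · rw [Subgroup.map_sup, hWx]
    refine sup_le ?_ hW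
    rintro _ ⟨a, ha, rfl⟩
    have := hφS ⟨a, ha⟩
    rw [hg, hxa a ha] at this
    exact this
  · rw [hg, hxa a a.2]
    rfl
  · rw [map_subgroupOf_eq_iff]
    constructor
    · intro y hy
      exact (Subgroup.mem_normalizer_iff.1 hx y).1 hy
    · intro y hy
      have h1 : x⁻¹ * y * x ∈ W := by
        have := (Subgroup.mem_normalizer_iff.1 (inv_mem hx) y).1 hy
        rwa [inv_inv] at this
      exact ⟨⟨_, le_sup_right (a := A) h1⟩, h1, by simp [conjHom_apply, mul_assoc]⟩

theorem isCentric_of_controls {G : Type*} [Group G] (P W : Subgroup G) (hW : W ≤ P)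
    (h : ∀ A : Set G, A ⊆ P → ControlsStrongFusionOf (Subgroup.normalizer (W : Set G)) P A)
    (hc : P ⊓ Subgroup.centralizer (W : Set G) ≤ W) :
    (groupFusionSystem P).IsCentric W := by
  refine ⟨hW, ?_⟩
  intro Q hQ
  obtain ⟨-, hQP, g, rfl⟩ := groupFus_isConj_iff.1 hQ
  obtain ⟨x, hx, hxa⟩ := (h (W : Set G) hW).2 g (by
    rintro _ ⟨a, ha, rfl⟩
    exact hQP ⟨a, ha, rfl⟩)
  have hWg : W.map (MulAut.conj g).toMonoidHom = W := by
    ext y
    constructor
    · rintro ⟨a, ha, rfl⟩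
      show g * a * g⁻¹ ∈ W
      rw [hxa a ha]
      exact (Subgroup.mem_normalizer_iff.1 hx a).1 ha
    · intro hy
      have h1 : x⁻¹ * y * x ∈ W := by
        have := (Subgroup.mem_normalizer_iff.1 (inv_mem hx) y).1 hy
        rwa [inv_inv] at this
      refine ⟨x⁻¹ * y * x, h1, ?_⟩
      show g * (x⁻¹ * y * x) * g⁻¹ = y
      rw [hxa _ h1]
      group
  rw [hWg]
  exact hc

end Cfsg.Agent.Lib.Helper76.FS
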