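import Cfsg.Agent.Lib.Helper76.PSQ.Torus

/-!
# Piece P1: the inversion, a transvection and a Weyl element in an irreducible quadratic pair
-/

set_option autoImplicit false

universe u

namespace Cfsg.Agent.Lib.Helper76.FS

open Cfsg Matrix Cfsg.Agent.Lib.Helper34 Cfsg.Agent.Lib.Lead Cfsg.Agent.Lib.Helper1.QuadUnits
  Cfsg.Agent.Lib.Helper1.QuadSL2 Cfsg.Agent.Lib.Helper1.QdNat Cfsg.Agent.Lib.Helper1.QdCore
  Cfsg.Agent.Lib.Helper76.PSQ

/-- P1 -/
theorem exists_weyl_triple {A : Type u} [CommGroup A] [Finite A] [Nontrivial A] {p : ℕ} [hp : Fact p.Prime]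
    (hp2 : p ≠ 2) (hexp : ∀ a : A, a ^ p = 1) (x y : MulAut A)
    (hx : ∀ a, x (x a * a⁻¹) = x a * a⁻¹) (hy : ∀ a, y (y a * a⁻¹) = y a * a⁻¹)
    (hirr : ∀ B : Subgroup A, (∀ l ∈ Subgroup.closure {x, y}, ∀ b ∈ B, l b ∈ B) → B = ⊥ ∨ B = ⊤)
    (hx1 : x ≠ 1) :
    ∃ (t k w : MulAut A) (v₁ v₂ : A), t ∈ Subgroup.closure {x, y} ∧ k ∈ Subgroup.closure {x, y} ∧
      w ∈ Subgroup.closure {x, y} ∧ (∀ a, t a = a⁻¹) ∧ k v₁ = v₁ ∧ k v₂ = v₁ * v₂ ∧ w v₁ = v₂⁻¹ ∧ w v₂ = v₁ ∧
      k * (w * k * w⁻¹) * k = w ∧ v₂⁻¹ ≠ v₁ := by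
  obtain ⟨F, _, _, _, φ, ε, ε', hε, hε', hε'L, hval⟩ := exists_sl2p_model hp2 hexp x y hx hy hirr hx1
  have h2 : (2 : ZMod p) ≠ 0 := by
    intro h
    have h' : ((2 : ℕ) : ZMod p) = 0 := by exact_mod_cast h
    rw [ZMod.natCast_eq_zero_iff] at h'
    have h3 := Nat.le_of_dvd (by norm_num) h'
    have h4 := hp.out.two_le
    omega
  obtain ⟨ha2, hb2, hab⟩ := anticomm_eq_neg_one hp2 ε hε _ _ rfl rfl
  have hM : ∀ m : Additive A, p • m = 0 := fun m => hexp m.toMul
  obtain ⟨ψ, hψ, hψu, hψl⟩ := exists_natural hM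
    (φ ((ε (upperT 1) : Matrix (Fin 2) (Fin 2) F) - 1)) (φ ((ε (lowerT (-1)) : Matrix (Fin 2) (Fin 2) F) - 1))
    (by rw [← map_mul, ha2, map_zero]) (by rw [← map_mul, hb2, map_zero])
    (by rw [← map_mul, ← map_mul, ← map_add, hab, map_neg, map_one])
  -- the action of the two generators
  have hu : ∀ w, Additive.ofMul (ε' (upperT 1) (ψ w).toMul) =
      ψ ((upperT (1 : ZMod p) : Matrix (Fin 2) (Fin 2) (ZMod p)) *ᵥ w) := by
    intro w
    rw [← hψu w]
    have h1 : mulAutToEnd A (ε' (upperT 1)) = 1 + φ ((ε (upperT 1) : Matrix (Fin 2) (Fin 2) F) - 1) := by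
      rw [hval, map_sub, map_one, add_sub_cancel]
    rw [← h1, mulAutToEnd_apply]
  have hl : ∀ w, Additive.ofMul (ε' (lowerT (-1)) (ψ w).toMul) =
      ψ ((lowerT (-1 : ZMod p) : Matrix (Fin 2) (Fin 2) (ZMod p)) *ᵥ w) := by
    intro w
    rw [← hψl w]
    have h1 : mulAutToEnd A (ε' (lowerT (-1))) = 1 + φ ((ε (lowerT (-1)) : Matrix (Fin 2) (Fin 2) F) - 1) := by
      rw [hval, map_sub, map_one, add_sub_cancel]
    rw [← h1, mulAutToEnd_apply]
  have hu' : ∀ w, ε' (upperT 1) (ψ w).toMul = (ψ ![w 0 + 1 * w 1, w 1]).toMul := by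
    intro w
    have := hu w
    rw [upperT_mulVec] at this
    exact congrArg Additive.toMul this
  have hl' : ∀ w, ε' (lowerT (-1)) (ψ w).toMul = (ψ ![w 0, -1 * w 0 + w 1]).toMul := by
    intro w
    have := hl w
    rw [lowerT_mulVec] at this
    exact congrArg Additive.toMul this
  have hbraid : upperT (1 : ZMod p) * lowerT (-1) * upperT 1 = lowerT (-1) * upperT 1 * lowerT (-1) := by
    apply Subtype.ext
    show !![1, 1; 0, 1] * !![1, 0; -1, 1] * !![1, 1; 0, 1] = !![1, 0; -1, 1] * !![1, 1; 0, 1] * !![1, 0; (-1 : ZMod p), 1]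
    simp only [Matrix.mul_fin_two]
    simp
  set k := ε' (upperT 1) with hk
  set l := ε' (lowerT (-1)) with hl0
  have hbr : k * l * k = l * k * l := by
    rw [hk, hl0, ← map_mul, ← map_mul, hbraid, map_mul, map_mul]
  refine ⟨ε' (-1), k, k * l * k, (ψ ![1, 0]).toMul, (ψ ![0, 1]).toMul, hε'L _, hε'L _, ?_, ?_, ?_, ?_, ?_, ?_, ?_, ?_⟩
  · rw [hk, hl0, ← map_mul, ← map_mul]
    exact hε'L _
  · intro a
    have hZ : ((ε (-1) : SpecialLinearGroup (Fin 2) F) : Matrix (Fin 2) (Fin 2) F) = -1 := by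
      apply eq_neg_one_of_sq (two_ne_zero_of_char (p := p) hp2)
      · rw [← map_mul, neg_mul_neg, one_mul, map_one]
      · intro h
        rw [← map_one ε] at h
        have h4 := hε h
        have h5 := congrArg (fun s : SpecialLinearGroup (Fin 2) (ZMod p) => (s : Matrix (Fin 2) (Fin 2) (ZMod p)) 0 0) h4
        simp at h5
        apply h2
        linear_combination (-1 : ZMod p) * h5
    have h1 := hval (-1)
    rw [hZ, map_neg, map_one] at h1
    have h4 := DFunLike.congr_fun h1 (Additive.ofMul a)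
    rw [mulAutToEnd_apply] at h4
    exact congrArg Additive.toMul h4
  · rw [hu']
    simp
  · rw [hu', ← toMul_add, ← map_add]
    congr 2
    ext i
    fin_cases i <;> simp
  · rw [MulAut.mul_apply, MulAut.mul_apply, hu', hl', hu', ← toMul_neg, ← map_neg]
    congr 2
    ext i
    fin_cases i <;> simp
  · rw [MulAut.mul_apply, MulAut.mul_apply, hu', hl', hu']
    congr 2
    ext i
    fin_cases i <;> simp
  · have : k * l * k * k * (k * l * k)⁻¹ = l := by
      rw [mul_inv_eq_iff_eq_mul]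
      calc k * l * k * k = (l * k * l) * k := by rw [hbr]
        _ = l * (k * l * k) := by group
    rw [this]
  · intro h
    rw [← toMul_neg, ← map_neg] at h
    have h3 := hψ (Additive.toMul.injective h)
    have h4 := congrFun h3 0
    simp at h4

end Cfsg.Agent.Lib.Helper76.FS
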